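import Mathlib

/-!
Fixed point counts in transitive groups: the identity behind the Cameron–Cohen bound.
-/

set_option autoImplicit false

namespace Cfsg.Agent.Derange

open MulAction Finset
open scoped Classical

variable {G : Type*} [Group G] {Ω : Type*} [MulAction G Ω] [Fintype Ω]

/-- The fixed points of `g`. -/
noncomputable def fixSet (g : G) : Finset Ω := univ.filter fun x => g • x = x

/-- The number of fixed points of `g`. -/
noncomputable def fx (Ω : Type*) [MulAction G Ω] [Fintype Ω] (g : G) : ℕ := (fixSet (Ω := Ω) g).card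

theorem mem_fixSet {g : G} {x : Ω} : x ∈ fixSet g ↔ g • x = x := by simp [fixSet]

theorem fx_le (g : G) : fx Ω g ≤ Fintype.card Ω := card_le_univ _

theorem fx_one : fx Ω (1 : G) = Fintype.card Ω := by simp [fx, fixSet]

theorem fx_eq_card_fixedBy (g : G) : fx Ω g = Nat.card (fixedBy Ω g) := by
  rw [fx, fixSet, Nat.card_eq_fintype_card, ← Set.toFinset_card]
  congr 1
  ext x
  simp

theorem fx_lt [FaithfulSMul G Ω] {g : G} (hg : g ≠ 1) : fx Ω g < Fintype.card Ω := by
  refine lt_of_le_of_ne (fx_le g) fun h => hg (eq_of_smul_eq_smul (α := Ω) fun x => ?_)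
  have := (card_eq_iff_eq_univ _).1 h
  rw [one_smul]
  exact mem_fixSet.1 (this ▸ mem_univ x)

theorem fx_eq_zero {g : G} : fx Ω g = 0 ↔ ∀ x : Ω, g • x ≠ x := by
  simp [fx, fixSet, filter_eq_empty_iff]

/-- The pointwise stabiliser of two points. -/
abbrev pairStab (G : Type*) [Group G] {Ω : Type*} [MulAction G Ω] (x y : Ω) : Subgroup G :=
  stabilizer G x ⊓ stabilizer G y

variable [Fintype G]

theorem sum_fx_subgroup (H : Subgroup G) :
    ∑ h : H, fx Ω (h : G) = Nat.card (orbitRel.Quotient H Ω) * Nat.card H := by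
  simp only [Nat.card_eq_fintype_card]
  rw [← sum_card_fixedBy_eq_card_orbits_mul_card_group H Ω]
  refine Finset.sum_congr rfl fun h _ => ?_
  rw [fx, fixSet, ← Set.toFinset_card]
  congr 1
  ext x
  simp [Subgroup.smul_def]

/-- Summing over the fixed pairs of the elements. -/
theorem sum_pairs {M : Type*} [AddCommMonoid M] (w : G → M) :
    ∑ p ∈ (univ : Finset Ω).offDiag, ∑ g ∈ univ.filter (fun g : G => g ∈ pairStab G p.1 p.2), w g =
      ∑ g : G, (fx Ω g * fx Ω g - fx Ω g) • w g := by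
  simp only [sum_filter]
  rw [Finset.sum_comm]
  refine Finset.sum_congr rfl fun g _ => ?_
  rw [← sum_filter, sum_const, fx, ← offDiag_card]
  congr 2
  ext p
  simp [fixSet, pairStab, Subgroup.mem_inf]
  tauto

/-- The number of pairs `(g, x, y)` with `g` fixing `x ≠ y`. -/
noncomputable def pairCount (G : Type*) [Group G] [Fintype G] (Ω : Type*) [MulAction G Ω] [Fintype Ω] : ℕ :=
  ∑ g : G, (fx Ω g * fx Ω g - fx Ω g)

theorem pairCount_eq : pairCount G Ω = ∑ p ∈ (univ : Finset Ω).offDiag, Nat.card (pairStab G p.1 p.2) := by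
  have h := sum_pairs (G := G) (Ω := Ω) (fun _ => (1 : ℕ))
  simp only [smul_eq_mul, mul_one, sum_const] at h
  rw [pairCount, ← h]
  refine Finset.sum_congr rfl fun p _ => ?_
  rw [Nat.card_eq_fintype_card, Fintype.card_subtype]

theorem sum_fx (htr : IsPretransitive G Ω) [Nonempty Ω] : ∑ g : G, fx Ω g = Fintype.card G := by
  have h := sum_card_fixedBy_eq_card_orbits_mul_card_group G Ω
  have h1 : Fintype.card (orbitRel.Quotient G Ω) = 1 := by
    rw [Fintype.card_eq_one_iff]
    obtain ⟨a⟩ := ‹Nonempty Ω›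
    refine ⟨Quotient.mk'' a, fun q => ?_⟩
    induction q using Quotient.inductionOn' with
    | h b => exact Quotient.sound' (MulAction.exists_smul_eq G a b)
  rw [h1, one_mul] at h
  rw [← h]
  refine Finset.sum_congr rfl fun g _ => ?_
  rw [fx, fixSet, ← Set.toFinset_card]
  congr 1
  ext x
  simp

/-- The weight of an element in the identity for derangements. -/
noncomputable def wt (Ω : Type*) [MulAction G Ω] [Fintype Ω] (g : G) : ℚ :=
  ((Fintype.card Ω : ℚ) - fx Ω g) / fx Ω g

theorem wt_nonneg (g : G) : 0 ≤ wt Ω g :=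
  div_nonneg (sub_nonneg.2 (by exact_mod_cast fx_le g)) (by positivity)

/-- `n · #derangements` is the pair count plus the sum of `(f - 1) (n - f)`. -/
theorem card_mul_derangements (htr : IsPretransitive G Ω) [Nonempty Ω] :
    (Fintype.card Ω : ℚ) * (univ.filter fun g : G => fx Ω g = 0).card =
      pairCount G Ω + ∑ g : G, ((fx Ω g * fx Ω g - fx Ω g : ℕ) : ℚ) * wt Ω g := by
  have h1 : ∀ g : G, ((fx Ω g * fx Ω g - fx Ω g : ℕ) : ℚ) * wt Ω g =
      ((fx Ω g : ℚ) - 1) * ((Fintype.card Ω : ℚ) - fx Ω g) + if fx Ω g = 0 then (Fintype.card Ω : ℚ) else 0 := by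
    intro g
    have hle : fx Ω g ≤ fx Ω g * fx Ω g := Nat.le_mul_self _
    rw [Nat.cast_sub hle, Nat.cast_mul, wt]
    by_cases h0 : fx Ω g = 0
    · simp [h0]
    · rw [if_neg h0, add_zero]
      have : (fx Ω g : ℚ) ≠ 0 := by exact_mod_cast h0
      field_simp
  have h2 : (pairCount G Ω : ℚ) = ∑ g : G, ((fx Ω g : ℚ) * fx Ω g - fx Ω g) := by
    rw [pairCount, Nat.cast_sum]
    refine Finset.sum_congr rfl fun g _ => ?_
    rw [Nat.cast_sub (Nat.le_mul_self _), Nat.cast_mul]
  have h3 : (∑ g : G, (fx Ω g : ℚ)) = Fintype.card G := by exact_mod_cast sum_fx htr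
  rw [Finset.sum_congr rfl fun g _ => h1 g, sum_add_distrib, ← sum_filter, sum_const, h2,
    nsmul_eq_mul]
  have h4 : ∑ g : G, ((fx Ω g : ℚ) - 1) * ((Fintype.card Ω : ℚ) - fx Ω g) =
      (Fintype.card Ω : ℚ) * Fintype.card G - ∑ g : G, ((fx Ω g : ℚ) * fx Ω g - fx Ω g) -
        (Fintype.card Ω : ℚ) * Fintype.card G := by
    calc ∑ g : G, ((fx Ω g : ℚ) - 1) * ((Fintype.card Ω : ℚ) - fx Ω g)
        = ∑ g : G, ((Fintype.card Ω : ℚ) * fx Ω g - ((fx Ω g : ℚ) * fx Ω g - fx Ω g) -
            (Fintype.card Ω : ℚ)) := Finset.sum_congr rfl fun g _ => by ring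
      _ = _ := by
        rw [sum_sub_distrib, sum_sub_distrib, ← mul_sum, h3, sum_const, card_univ, nsmul_eq_mul]
        ring
  rw [h4]
  ring

end Cfsg.Agent.Derange
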