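import Cfsg.Agent.Derange.Cases

/-!
The weight of a pair stabiliser in a two-transitive group.
-/

set_option autoImplicit false
set_option linter.unusedVariables false
set_option linter.unusedSectionVars false
set_option linter.style.haveILetI false

namespace Cfsg.Agent.Derange

open MulAction Finset
open scoped Classical

variable {G : Type*} [Group G] [Fintype G] {Ω : Type*} [MulAction G Ω] [Fintype Ω]

theorem mul_pred_cast (d : ℕ) (hd : 1 ≤ d) : ((d - 1 : ℕ) : ℚ) = (d : ℚ) - 1 := by
  rw [Nat.cast_sub hd, Nat.cast_one]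

variable (h2 : IsMultiplyPretransitive G Ω 2)
include h2

theorem two_trans : ∀ a b c e : Ω, a ≠ b → c ≠ e → ∃ g : G, g • a = c ∧ g • b = e :=
  fun a b c e hab hce => is_two_pretransitive_iff.1 h2 hab hce

omit [Fintype G] in
theorem orbit_card_transport [Finite G] {a b x y : Ω} (hab : a ≠ b) (hxy : x ≠ y) {N : ℕ}
    (h : ∀ c : Ω, Nat.card (orbit (pairStab G a b) c) ≤ N) (c : Ω) :
    Nat.card (orbit (pairStab G x y) c) ≤ N := by
  obtain ⟨g, hx, hy⟩ := is_two_pretransitive_iff.1 h2 hxy hab
  refine le_trans ?_ (h (g • c))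
  refine Nat.card_le_card_of_injective
    (fun z : orbit (pairStab G x y) c => (⟨g • (z : Ω), ?_⟩ : orbit (pairStab G a b) (g • c)))
    fun u v e => Subtype.ext (MulAction.injective g (congrArg Subtype.val e))
  obtain ⟨⟨k, hk⟩, e⟩ := z.2
  have hk' : g * k * g⁻¹ ∈ pairStab G a b := by
    refine Subgroup.mem_inf.2 ⟨?_, ?_⟩ <;> rw [mem_stabilizer_iff, mul_smul, mul_smul]
    · rw [← hx, inv_smul_smul, mem_stabilizer_iff.1 hk.1]
    · rw [← hy, inv_smul_smul, mem_stabilizer_iff.1 hk.2]
  refine ⟨⟨g * k * g⁻¹, hk'⟩, ?_⟩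
  show (g * k * g⁻¹) • g • c = g • (z : Ω)
  rw [mul_smul, mul_smul, inv_smul_smul]
  exact congrArg (g • ·) e

theorem card_group {a b : Ω} (hab : a ≠ b) :
    Nat.card G = Fintype.card Ω * ((Fintype.card Ω - 1) * Nat.card (pairStab G a b)) := by
  haveI : IsPretransitive G Ω := isPretransitive_of_is_two_pretransitive (h2 := h2)
  have h1 : (stabilizer G a).index = Fintype.card Ω := by
    rw [index_stabilizer, orbit_eq_univ, Set.ncard_univ, Nat.card_eq_fintype_card]
  have h3 : (stabilizer G b).relIndex (stabilizer G a) = Fintype.card Ω - 1 := by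
    rw [relIndex_stabilizer, Nat.card_coe_set_eq]
    have : orbit (stabilizer G a) b = {x | x ≠ a} := by
      ext x
      constructor
      · rintro ⟨⟨g, hg⟩, rfl⟩ (h : g • b = a)
        exact hab (MulAction.injective g ((mem_stabilizer_iff.1 hg).trans h.symm))
      · intro hx
        obtain ⟨g, hga, hgb⟩ := is_two_pretransitive_iff.1 h2 hab (Ne.symm (hx : x ≠ a))
        exact ⟨⟨g, hga⟩, hgb⟩
    rw [this, Set.ncard_eq_toFinset_card', Set.toFinset_setOf,
      show (univ.filter fun x : Ω => x ≠ a) = univ.erase a by ext x; simp,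
      card_erase_of_mem (mem_univ a), card_univ]
  have h4 := Subgroup.relIndex_mul_relIndex (⊥ : Subgroup G) (stabilizer G b ⊓ stabilizer G a)
    (stabilizer G a) bot_le inf_le_right
  rw [Subgroup.relIndex_bot_left, Subgroup.relIndex_bot_left, Subgroup.inf_relIndex_right, h3,
    inf_comm] at h4
  rw [← (stabilizer G a).card_mul_index, h1, ← h4]
  show _ = _ * (_ * Nat.card ↥(stabilizer G a ⊓ stabilizer G b))
  ring

/-- The orbit statistics of a pair stabiliser. -/
theorem orbit_stats {a b : Ω} : ∃ (t P : ℕ),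
    ∑ h : pairStab G a b, fx Ω (h : G) = t * Nat.card (pairStab G a b) ∧
    Fintype.card Ω + (fixPair G a b).card = 2 * t + P ∧
    (∀ c : Ω, Nat.card (orbit (pairStab G a b) c) ≤ 2 + P) ∧
    (P = 1 → ∀ c c' : Ω, Nat.card (orbit (pairStab G a b) c) = 3 → c' ∉ orbit (pairStab G a b) c →
      Nat.card (orbit (pairStab G a b) c') ≤ 2) := by
  set D := pairStab G a b
  let O : orbitRel.Quotient D Ω → ℕ := fun q => Nat.card (orbit D q.out)
  let e : orbitRel.Quotient D Ω → ℕ := fun q => O q + (if O q = 1 then 1 else 0) - 2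
  have hO : ∀ c, O (Quotient.mk'' c) = Nat.card (orbit D c) := fun c => by
    have h : orbit D (Quotient.mk'' c : orbitRel.Quotient D Ω).out = orbit D c :=
      orbit_eq_iff.2 (orbitRel_apply.1 (Quotient.exact' (Quotient.out_eq' _)))
    simp only [O, h]
  have hO1 : ∀ q, 1 ≤ O q := fun q => Nat.card_pos_iff.2 ⟨(nonempty_orbit q.out).to_subtype, inferInstance⟩
  refine ⟨Nat.card (orbitRel.Quotient D Ω), ∑ q, e q, sum_fx_subgroup D, ?_, fun c => ?_, ?_⟩
  · have hn : ∑ q, O q = Fintype.card Ω := by
      have h := Nat.card_congr (selfEquivSigmaOrbits D Ω)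
      rw [Nat.card_sigma, Nat.card_eq_fintype_card] at h
      exact h.symm
    have hk : (fixPair G a b).card = (univ.filter fun q => O q = 1).card := by
      refine card_bij (fun c _ => (Quotient.mk'' c : orbitRel.Quotient D Ω)) (fun c hc => ?_)
        (fun c hc c' hc' h => ?_) (fun q hq => ?_)
      · rw [mem_filter]
        refine ⟨mem_univ _, ?_⟩
        rw [hO, ← relIndex_stabilizer, Subgroup.relIndex_eq_one]
        exact fun g hg => mem_fixPair.1 hc g hg
      · obtain ⟨⟨g, hg⟩, e⟩ := orbitRel_apply.1 (Quotient.exact' h)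
        exact e.symm.trans (mem_fixPair.1 hc' g hg)
      · refine ⟨q.out, mem_fixPair.2 fun g hg => ?_, Quotient.out_eq' q⟩
        have h := (mem_filter.1 hq).2
        simp only [O, ← relIndex_stabilizer, Subgroup.relIndex_eq_one] at h
        exact h hg
    have h3 : ∑ q, (2 + e q) = ∑ q, (O q + if O q = 1 then 1 else 0) := by
      refine Finset.sum_congr rfl fun q _ => ?_
      have := hO1 q
      simp only [e]
      split <;> omega
    rw [sum_add_distrib, sum_add_distrib, hn, sum_boole, Nat.cast_id, ← hk, sum_const, smul_eq_mul,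
      card_univ, ← Nat.card_eq_fintype_card] at h3
    omega
  · have h := single_le_sum (f := e) (fun q _ => Nat.zero_le _) (mem_univ (Quotient.mk'' c))
    simp only [e, hO] at h
    split at h <;> simp only [e] at * <;> omega
  · intro hP c c' hc hc'
    have hne : (Quotient.mk'' c' : orbitRel.Quotient D Ω) ≠ Quotient.mk'' c := fun h =>
      hc' (orbitRel_apply.1 (Quotient.exact' h))
    have h := add_le_sum (f := e) (fun q _ => Nat.zero_le _) (mem_univ (Quotient.mk'' c'))
      (mem_univ (Quotient.mk'' c)) hne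
    rw [hP] at h
    simp only [e, hO, hc] at h
    split at h <;> omega

/-- The total weight of a pair stabiliser is at least its order. -/
theorem card_le_sum_wt [FaithfulSMul G Ω] (hn : 7 ≤ Fintype.card Ω) {a b : Ω} (hab : a ≠ b)
    (hd : 2 ≤ Nat.card (pairStab G a b)) :
    (Nat.card (pairStab G a b) : ℚ) ≤ ∑ h : pairStab G a b, wt Ω (h : G) := by
  have h2' := two_trans h2
  set D := pairStab G a b
  set d := Nat.card D with hddef
  set n := Fintype.card Ω with hndef
  set A := (univ : Finset D).erase 1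
  have hAc : A.card = d - 1 := by
    rw [card_erase_of_mem (mem_univ _), card_univ, ← Nat.card_eq_fintype_card]
  have hw : ∑ h : D, wt Ω (h : G) = ∑ h ∈ A, wt Ω (h : G) := by
    rw [← Finset.add_sum_erase _ _ (mem_univ (1 : D))]
    simp [wt, fx_one, A]
  rw [hw]
  have hne1 : ∀ h ∈ A, (h : G) ≠ 1 := fun h hh e => (mem_erase.1 hh).1 (Subtype.ext e)
  have hpos : ∀ h ∈ A, 2 ≤ fx Ω (h : G) := fun h _ => by
    rw [fx, ← card_pair hab]
    exact card_le_card fun x hx => by
      rcases mem_insert.1 hx with rfl | hx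
      · exact mem_fixSet.2 h.2.1
      · rw [Finset.mem_singleton.1 hx]; exact mem_fixSet.2 h.2.2
  set k := (fixPair G a b).card with hkdef
  have hk2 : 2 ≤ k := by
    rw [hkdef, ← card_pair hab]
    exact card_le_card fun x hx => by
      rcases mem_insert.1 hx with rfl | hx
      · exact left_mem_fixPair _ _
      · rw [Finset.mem_singleton.1 hx]; exact right_mem_fixPair _ _
  have hbound : ∀ h ∈ A, fx Ω (h : G) * (k - 1) ≤ n - 1 := fun h hh =>
    fixPair_mul_le h2' (hne1 h hh) hab
  rcases Nat.lt_or_ge k 4 with hk4 | hk4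
  swap
  · have h1 : ∀ h ∈ A, (2 : ℚ) ≤ wt Ω (h : G) := fun h hh => by
      have h3 : fx Ω (h : G) * 3 ≤ n :=
        le_trans (Nat.mul_le_mul_left _ (by omega)) ((hbound h hh).trans (Nat.sub_le _ _))
      have hf : (0 : ℚ) < fx Ω (h : G) := by exact_mod_cast lt_of_lt_of_le two_pos (hpos h hh)
      rw [wt, le_div_iff₀ hf]
      have : (fx Ω (h : G) : ℚ) * 3 ≤ n := by exact_mod_cast h3
      linarith
    have h2'' := card_nsmul_le_sum A _ 2 h1
    rw [hAc, nsmul_eq_mul, mul_pred_cast d (by omega)] at h2''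
    have : (2 : ℚ) ≤ d := by exact_mod_cast hd
    linarith
  by_contra! hlt
  obtain ⟨t, P, hsum, hstat, horb, hone⟩ := orbit_stats h2 (a := a) (b := b)
  replace horb : ∀ c : Ω, Nat.card (orbit D c) ≤ 2 + P := horb
  replace hstat : n + k = 2 * t + P := hstat
  replace hsum : ∑ h : D, fx Ω (h : G) = t * d := hsum
  have hsum' : n + ∑ h ∈ A, fx Ω (h : G) = t * d := by
    rw [hddef, ← hsum, ← Finset.add_sum_erase _ _ (mem_univ (1 : D))]
    simp [fx_one, A, hndef]
  -- the failure gives many orbits
  have hdn : n * d < t * (2 * d - 1) := by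
    have hAne : A.Nonempty := card_pos.1 (by omega)
    have hfpos : ∀ h ∈ A, (0 : ℚ) < fx Ω (h : G) := fun h hh => by
      exact_mod_cast lt_of_lt_of_le two_pos (hpos h hh)
    have hT : (0 : ℚ) < ∑ h ∈ A, (fx Ω (h : G) : ℚ) := sum_pos hfpos hAne
    have hsed := Finset.sq_sum_div_le_sum_sq_div A (fun _ => (1 : ℚ)) hfpos
    simp only [sum_const, nsmul_eq_mul, mul_one, one_pow, hAc] at hsed
    have hwt : ∑ h ∈ A, wt Ω (h : G) = (n : ℚ) * ∑ h ∈ A, 1 / (fx Ω (h : G) : ℚ) - (d - 1 : ℕ) := by
      rw [mul_sum, ← hAc, eq_sub_iff_add_eq, show ((A.card : ℕ) : ℚ) = ∑ _h ∈ A, (1 : ℚ) by simp,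
        ← sum_add_distrib]
      refine Finset.sum_congr rfl fun h hh => ?_
      have := (hfpos h hh).ne'
      rw [wt]
      field_simp
      ring
    rw [hwt, mul_pred_cast d (by omega)] at hlt
    rw [mul_pred_cast d (by omega), div_le_iff₀ hT] at hsed
    have hTe : (∑ h ∈ A, (fx Ω (h : G) : ℚ)) = (t : ℚ) * d - n := by
      rw [eq_sub_iff_add_eq, add_comm]; exact_mod_cast hsum'
    have hd' : (2 : ℚ) ≤ d := by exact_mod_cast hd
    have hn' : (0 : ℚ) < n := by exact_mod_cast (by omega : 0 < n)
    have h5 : (n : ℚ) * ((d : ℚ) - 1) ^ 2 < (2 * (d : ℚ) - 1) * (t * d - n) := by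
      have h6 := mul_le_mul_of_nonneg_left hsed hn'.le
      rw [hTe] at h6 hT
      nlinarith
    have h7 : (n : ℚ) * d < t * (2 * d - 1) := by
      by_contra! h7
      have := mul_le_mul_of_nonneg_left h7 (by linarith : (0 : ℚ) ≤ d)
      nlinarith
    have h8 : ((n * d : ℕ) : ℚ) < ((t * (2 * d - 1) : ℕ) : ℚ) := by
      rw [Nat.cast_mul, Nat.cast_mul, Nat.cast_sub (by omega)]
      push_cast
      exact h7
    exact_mod_cast h8
  have hfail : t + P * d < k * d := by
    zify [show 1 ≤ 2 * d by omega] at hdn ⊢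
    have : (n : ℤ) + k = 2 * t + P := by exact_mod_cast hstat
    nlinarith
  -- all orbits of length at most two
  have hsmallcase : P = 0 → False := by
    rintro rfl
    have hd2 : d ≤ 2 := card_le_two h2' (fun x y hxy => orbit_card_transport h2 hab hxy horb) hab
    have hd2' : d = 2 := by omega
    obtain ⟨s, hs⟩ := card_eq_one.1 (show A.card = 1 by omega)
    have hfs : fx Ω (s : G) = k := by
      rw [hkdef, fx]
      congr 1
      ext c
      rw [mem_fixSet, mem_fixPair]
      refine ⟨fun h g hg => ?_, fun h => h _ s.2⟩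
      by_cases hg1 : (⟨g, hg⟩ : D) = 1
      · rw [show g = 1 from congrArg Subtype.val hg1, one_smul]
      · have hmem : (⟨g, hg⟩ : D) ∈ A := mem_erase.2 ⟨hg1, mem_univ _⟩
        rw [hs, Finset.mem_singleton] at hmem
        rw [show g = (s : G) from congrArg Subtype.val hmem]
        exact h
    rw [hs, sum_singleton, wt, hfs, hd2', div_lt_iff₀ (by exact_mod_cast (by omega : 0 < k))] at hlt
    have hlt' : n < 3 * k := by
      have h3 : ((n : ℕ) : ℚ) < ((3 * k : ℕ) : ℚ) := by push_cast at hlt ⊢; linarith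
      exact_mod_cast h3
    have hn7 : n = 7 := by omega
    have hG := card_group h2 hab
    rw [← hndef, hn7, show Nat.card ↥(pairStab G a b) = 2 from hd2'] at hG
    exact not_order_84 (isPretransitive_of_is_two_pretransitive (h2 := h2)) hn7 hG
  rcases (by omega : k = 2 ∨ k = 3) with hk | hk
  · have hP : P < 2 := by
      by_contra! hP
      nlinarith
    rcases (by omega : P = 0 ∨ P = 1) with hP0 | hP1
    · exact hsmallcase hP0
    · obtain ⟨c₀, hc₀⟩ : ∃ c, Nat.card (orbit D c) = 3 := by
        by_contra! hall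
        have h2o : ∀ c, Nat.card (orbit D c) ≤ 2 := fun c => by
          have := horb c; have := hall c; omega
        have hd2 : d ≤ 2 := card_le_two h2' (fun x y hxy => orbit_card_transport h2 hab hxy h2o) hab
        have : t + 2 < 2 * 2 := by nlinarith
        omega
      have hfix1 : ∀ c : Ω, (∀ g ∈ D, g • c = c) → Nat.card (orbit D c) = 1 := fun c hc => by
        rw [← relIndex_stabilizer, Subgroup.relIndex_eq_one]
        exact hc
      have hca : c₀ ≠ a := by
        rintro rfl
        rw [hfix1 _ fun g hg => hg.1] at hc₀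
        omega
      have hcb : c₀ ≠ b := by
        rintro rfl
        rw [hfix1 _ fun g hg => hg.2] at hc₀
        omega
      have := card_le_five h2 hab hca hcb hc₀ (fun c hc => hone hP1 c₀ c hc₀ hc)
      omega
  · have hP : P < 3 := by
      by_contra! hP
      nlinarith
    have hM : ∀ M, (∀ h ∈ A, fx Ω (h : G) ≤ M) → t * d ≤ n + (d - 1) * M := fun M hM => by
      rw [← hsum', ← hAc]
      exact Nat.add_le_add_left ((sum_le_card_nsmul A _ M hM).trans (le_of_eq (smul_eq_mul _ _))) n
    rcases (by omega : P = 0 ∨ P = 1 ∨ P = 2) with hP0 | hP1 | hP2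
    · exact hsmallcase hP0
    · have h3 := hM (t - 2) fun h hh => by
        have := hbound h hh; rw [hk] at this; omega
      zify [show 1 ≤ d by omega, show 2 ≤ t by omega] at h3
      have : (n : ℤ) + 3 = 2 * t + 1 := by omega
      nlinarith
    · have h3 := hM (t - 1) fun h hh => by
        have := hbound h hh; rw [hk] at this; omega
      zify [show 1 ≤ d by omega, show 1 ≤ t by omega] at h3
      have : (n : ℤ) + 3 = 2 * t + 2 := by omega
      nlinarith

end Cfsg.Agent.Derange
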