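import Cfsg.Agent.Derange.SmallOrbit

/-!
The two exceptional configurations: a three-cycle, and order 84 on seven points.
-/

set_option autoImplicit false

namespace Cfsg.Agent.Derange

open MulAction Finset
open scoped Classical

variable {G : Type*} [Group G] [Finite G] {Ω : Type*} [MulAction G Ω] [Fintype Ω] [FaithfulSMul G Ω]

/-- One orbit of length three and no other orbit longer than two gives a three-cycle. -/
theorem card_le_five (h2 : IsMultiplyPretransitive G Ω 2) {a b c₀ : Ω} (hab : a ≠ b) (hca : c₀ ≠ a)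
    (hcb : c₀ ≠ b) (h3 : Nat.card (orbit (pairStab G a b) c₀) = 3)
    (hrest : ∀ c, c ∉ orbit (pairStab G a b) c₀ → Nat.card (orbit (pairStab G a b) c) ≤ 2) :
    Fintype.card Ω ≤ 5 := by
  set D := pairStab G a b with hD
  have h3d : 3 ∣ Nat.card D := by
    rw [← h3, ← relIndex_stabilizer]
    exact Subgroup.relIndex_dvd_card (stabilizer G c₀) D
  haveI : Fact (Nat.Prime 3) := ⟨Nat.prime_three⟩
  obtain ⟨s, hs⟩ := exists_prime_orderOf_dvd_card' 3 h3d
  have hfix : ∀ c, c ∉ orbit D c₀ → (s : G) • c = c := by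
    intro c hc
    have h := hrest c hc
    rw [← relIndex_stabilizer, Subgroup.relIndex] at h
    rcases Nat.lt_or_ge ((stabilizer G c).subgroupOf D).index 2 with hlt | hge
    · have h1 : ((stabilizer G c).subgroupOf D).index = 1 := by
        have : ((stabilizer G c).subgroupOf D).index ≠ 0 := Subgroup.index_ne_zero_of_finite
        omega
      rw [Subgroup.index_eq_one, Subgroup.subgroupOf_eq_top] at h1
      exact mem_stabilizer_iff.1 (h1 s.2)
    · have h2' := Subgroup.sq_mem_of_index_two (le_antisymm h hge) (s ^ 2)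
      rw [← pow_mul, show 2 * 2 = 3 + 1 from rfl, pow_succ,
        show s ^ 3 = 1 from hs ▸ pow_orderOf_eq_one s, one_mul, Subgroup.mem_subgroupOf] at h2'
      exact mem_stabilizer_iff.1 h2'
  set π : Equiv.Perm Ω := MulAction.toPermHom G Ω (s : G) with hπ
  have hπo : orderOf π = 3 := by
    rw [hπ, orderOf_injective (MulAction.toPermHom G Ω) MulAction.toPerm_injective,
      Subgroup.orderOf_coe, hs]
  have hsub : π.support.card ≤ 3 := by
    rw [← h3, Nat.card_coe_set_eq, Set.ncard_eq_toFinset_card']
    refine card_le_card fun c hc => ?_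
    rw [Set.mem_toFinset]
    by_contra hc'
    exact Equiv.Perm.mem_support.1 hc (hfix c hc')
  have hcyc : π.IsThreeCycle := by
    have h0 : π.support.card ≠ 0 := by
      rw [Ne, Equiv.Perm.card_support_eq_zero]
      intro h
      rw [h, orderOf_one] at hπo
      omega
    have h1 : π.support.card ≠ 1 := Equiv.Perm.card_support_ne_one π
    have h2' : π.support.card ≠ 2 := by
      intro h
      have := (Equiv.Perm.card_support_eq_two.1 h).orderOf
      omega
    exact _root_.card_support_eq_three_iff.1 (by omega)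
  have hprim := isPreprimitive_of_is_two_pretransitive (G := G) (α := Ω) h2
  set H := (MulAction.toPermHom G Ω).range
  have hH : IsPreprimitive H Ω := by
    let f : Ω →ₑ[(MulAction.toPermHom G Ω).rangeRestrict] Ω :=
      { toFun := id, map_smul' := fun g x => rfl }
    exact IsPreprimitive.of_surjective (f := f) Function.surjective_id
  have halt := Equiv.Perm.alternatingGroup_le_of_isPreprimitive_of_isThreeCycle_mem hH hcyc ⟨_, rfl⟩
  by_contra! hn
  have hsub2 : (univ : Finset Ω) \ {a, b} ⊆ (orbit D c₀).toFinset := by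
    intro c hc
    rw [Finset.mem_sdiff, mem_insert, Finset.mem_singleton] at hc
    push Not at hc
    rw [Set.mem_toFinset]
    by_cases he : c = c₀
    · rw [he]; exact mem_orbit_self c₀
    obtain ⟨e, he'⟩ : ∃ e, e ∉ ({a, b, c₀, c} : Finset Ω) := by
      by_contra! hall
      have := card_le_card (s := (univ : Finset Ω)) (fun x _ => hall x)
      rw [card_univ] at this
      have := this.trans card_le_four
      omega
    simp only [mem_insert, Finset.mem_singleton] at he'
    push Not at he'
    obtain ⟨ea, eb, e0, ec⟩ := he'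
    obtain ⟨g, hg⟩ := halt (x := Equiv.swap c₀ c * Equiv.swap c e) (by
      rw [Equiv.Perm.mem_alternatingGroup, map_mul, Equiv.Perm.sign_swap (Ne.symm he),
        Equiv.Perm.sign_swap (Ne.symm ec)]
      rfl)
    have hg' : ∀ x, g • x = Equiv.swap c₀ c (Equiv.swap c e x) := fun x => by
      have := congrArg (fun q : Equiv.Perm Ω => q x) hg
      simpa using this
    have hgD : g ∈ D := by
      refine Subgroup.mem_inf.2 ⟨?_, ?_⟩ <;> rw [mem_stabilizer_iff, hg']
      · rw [Equiv.swap_apply_of_ne_of_ne (Ne.symm hc.2.1) (Ne.symm ea),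
          Equiv.swap_apply_of_ne_of_ne (Ne.symm hca) (Ne.symm hc.2.1)]
      · rw [Equiv.swap_apply_of_ne_of_ne (Ne.symm hc.2.2) (Ne.symm eb),
          Equiv.swap_apply_of_ne_of_ne (Ne.symm hcb) (Ne.symm hc.2.2)]
    refine ⟨⟨g, hgD⟩, ?_⟩
    show g • c₀ = c
    rw [hg', Equiv.swap_apply_of_ne_of_ne (Ne.symm he) (Ne.symm e0), Equiv.swap_apply_left]
  have hc1 := card_le_card hsub2
  rw [← Set.ncard_eq_toFinset_card', ← Nat.card_coe_set_eq, h3,
    card_sdiff_of_subset (subset_univ _), card_univ, card_pair hab] at hc1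
  omega

/-- No faithful transitive group on seven points has order 84. -/
theorem not_order_84 (htr : IsPretransitive G Ω) (hΩ : Fintype.card Ω = 7) : Nat.card G ≠ 84 := by
  intro hG
  haveI : Fact (Nat.Prime 7) := ⟨by norm_num⟩
  obtain ⟨g0, hg0⟩ := exists_prime_orderOf_dvd_card' (G := G) 7 (by rw [hG]; norm_num)
  obtain ⟨a⟩ : Nonempty Ω := Fintype.card_pos_iff.1 (by omega)
  have hidx : (stabilizer G a).index = 7 := by
    rw [index_stabilizer, orbit_eq_univ, Set.ncard_univ, Nat.card_eq_fintype_card, hΩ]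
  have hstab : Nat.card (stabilizer G a) = 12 := by
    have := (stabilizer G a).card_mul_index
    rw [hidx, hG] at this
    omega
  have hZ : IsPGroup 7 (Subgroup.zpowers g0) :=
    IsPGroup.of_card (n := 1) (by rw [Nat.card_zpowers, hg0, pow_one])
  obtain ⟨P, hP⟩ := hZ.exists_le_sylow
  have hPc : Nat.card (P : Subgroup G) = 7 := by
    rw [P.card_eq_multiplicity, hG]
    have h7 : (84 : ℕ).factorization 7 = 1 := by
      rw [show (84 : ℕ) = 7 * 12 from rfl, Nat.factorization_mul (by norm_num) (by norm_num)]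
      simp [Nat.Prime.factorization_self (show Nat.Prime 7 by norm_num),
        Nat.factorization_eq_zero_of_not_dvd (show ¬ 7 ∣ 12 by norm_num)]
    rw [h7, pow_one]
  have hPz : (P : Subgroup G) = Subgroup.zpowers g0 :=
    (Subgroup.eq_of_le_of_card_ge hP (by rw [hPc, Nat.card_zpowers, hg0])).symm
  have hnP : Nat.card (Sylow 7 G) = 1 := by
    have h1 := card_sylow_modEq_one 7 G
    have h2 : Nat.card (Sylow 7 G) ∣ (P : Subgroup G).index := P.card_dvd_index
    have h3 : (P : Subgroup G).index = 12 := by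
      have := (P : Subgroup G).card_mul_index
      rw [hPc, hG] at this
      omega
    rw [h3] at h2
    have := Nat.le_of_dvd (by norm_num) h2
    rw [Nat.ModEq] at h1
    interval_cases h : Nat.card (Sylow 7 G) <;> simp_all
  haveI : (P : Subgroup G).Normal := by
    haveI : Subsingleton (Sylow 7 G) := (Nat.card_eq_one_iff_unique.1 hnP).1
    exact Sylow.normal_of_subsingleton P
  have hmem : ∀ h : stabilizer G a, (h : G) * g0 * (h : G)⁻¹ ∈ (P : Subgroup G) := fun h =>
    (inferInstance : (P : Subgroup G).Normal).conj_mem g0 (hP (Subgroup.mem_zpowers g0)) h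
  have hne : ∀ h : stabilizer G a, (⟨_, hmem h⟩ : (P : Subgroup G)) ≠ 1 := by
    intro h e
    have e' : (h : G) * g0 * (h : G)⁻¹ = 1 := congrArg Subtype.val e
    rw [conj_eq_one_iff] at e'
    rw [e', orderOf_one] at hg0
    omega
  have horb : ∀ x : Ω, x ∈ orbit (Subgroup.zpowers g0) a := by
    have h7 : Nat.card (orbit (Subgroup.zpowers g0) a) = 7 := by
      have hd := Subgroup.relIndex_dvd_card (stabilizer G a) (Subgroup.zpowers g0)
      rw [relIndex_stabilizer, Nat.card_zpowers, hg0, Nat.dvd_prime (by norm_num)] at hd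
      rcases hd with h1 | h7
      · exfalso
        rw [← relIndex_stabilizer, Subgroup.relIndex_eq_one] at h1
        have := Subgroup.card_dvd_of_le h1
        rw [Nat.card_zpowers, hg0, hstab] at this
        norm_num at this
      · exact h7
    intro x
    have hu : orbit (Subgroup.zpowers g0) a = Set.univ := by
      refine Set.eq_of_subset_of_ncard_le (Set.subset_univ _) ?_
      rw [Set.ncard_univ, ← Nat.card_coe_set_eq (orbit _ _), h7, Nat.card_eq_fintype_card, hΩ]
    rw [hu]; exact Set.mem_univ x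
  have hinj : Function.Injective fun h : stabilizer G a =>
      (⟨⟨_, hmem h⟩, hne h⟩ : {x : (P : Subgroup G) // x ≠ 1}) := by
    intro h h' e
    have e' : (h : G) * g0 * (h : G)⁻¹ = (h' : G) * g0 * (h' : G)⁻¹ :=
      congrArg (fun x : {x : (P : Subgroup G) // x ≠ 1} => ((x.1 : (P : Subgroup G)) : G)) e
    have hc : Commute ((h' : G)⁻¹ * h) g0 := by
      show (h' : G)⁻¹ * h * g0 = g0 * ((h' : G)⁻¹ * h)
      calc (h' : G)⁻¹ * h * g0 = (h' : G)⁻¹ * ((h : G) * g0 * (h : G)⁻¹) * h := by group
        _ = _ := by rw [e']; group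
    refine Subtype.ext ?_
    have h1 : (h' : G)⁻¹ * h = 1 := by
      refine eq_of_smul_eq_smul (α := Ω) fun x => ?_
      rw [one_smul]
      obtain ⟨⟨z, hz⟩, rfl⟩ := horb x
      obtain ⟨i, rfl⟩ := Subgroup.mem_zpowers_iff.1 hz
      show ((h' : G)⁻¹ * h) • (g0 ^ i • a) = g0 ^ i • a
      rw [← mul_smul, (hc.zpow_right i).eq, mul_smul, mul_smul, mem_stabilizer_iff.1 h.2,
        inv_smul_eq_iff.2 (mem_stabilizer_iff.1 h'.2).symm]
    exact (inv_mul_eq_one.1 h1).symm
  haveI : Fintype (P : Subgroup G) := Fintype.ofFinite _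
  have h6 := Nat.card_le_card_of_injective _ hinj
  rw [hstab, Nat.card_eq_fintype_card, Fintype.card_subtype_compl, Fintype.card_subtype_eq,
    ← Nat.card_eq_fintype_card, hPc] at h6
  omega

end Cfsg.Agent.Derange
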