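import Cfsg.Agent.Derange.Bound

/-!
Derangements in a transitive group number at least `2|G|/n` unless the group is sharply two-transitive.
-/

set_option autoImplicit false

namespace Cfsg.Agent.Derange

open MulAction Finset
open scoped Classical

variable {G : Type*} [Group G] [Fintype G] {Ω : Type*} [MulAction G Ω] [Fintype Ω]

theorem fx_mul_self (g : G) : fx (Ω × Ω) g = fx Ω g * fx Ω g := by
  rw [fx, fx, ← card_product]
  congr 1
  ext p
  simp [fixSet, Prod.ext_iff]

/-- A transitive group which is not two-transitive has pair count at least `2|G|`. -/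
theorem two_mul_card_le_pairCount (htr : IsPretransitive G Ω) [Nonempty Ω]
    (h2 : ¬ IsMultiplyPretransitive G Ω 2) : 2 * Nat.card G ≤ pairCount G Ω := by
  obtain ⟨a, b, c, e, hab, hce, hno⟩ : ∃ a b c e : Ω, a ≠ b ∧ c ≠ e ∧ ∀ g : G, g • a = c → g • b ≠ e := by
    by_contra! hall
    refine h2 (is_two_pretransitive_iff.2 fun {a b c d} hab hcd => ?_)
    exact hall a b c d hab hcd
  have h3 : 3 ≤ Nat.card (orbitRel.Quotient (⊤ : Subgroup G) (Ω × Ω)) := by
    let f : Fin 3 → orbitRel.Quotient (⊤ : Subgroup G) (Ω × Ω) :=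
      ![Quotient.mk'' (a, a), Quotient.mk'' (a, b), Quotient.mk'' (c, e)]
    have hf : Function.Injective f := by
      have key : ∀ p q : Ω × Ω, (Quotient.mk'' p : orbitRel.Quotient (⊤ : Subgroup G) (Ω × Ω)) = Quotient.mk'' q →
          ∃ g : G, g • q.1 = p.1 ∧ g • q.2 = p.2 := fun p q h => by
        obtain ⟨⟨g, hmem⟩, hg⟩ := orbitRel_apply.1 (Quotient.exact' h)
        exact ⟨g, congrArg Prod.fst hg, congrArg Prod.snd hg⟩
      intro i j h
      fin_cases i <;> fin_cases j <;> first
        | rfl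
        | (exfalso; simp only [f] at h; obtain ⟨g, h1, h2⟩ := key _ _ h
           simp only at h1 h2
           first
            | exact hab (MulAction.injective g (h1.trans h2.symm))
            | exact hce (MulAction.injective g (h1.trans h2.symm))
            | exact hab (h1.symm.trans h2)
            | exact hce (h1.symm.trans h2)
            | exact hno g h1 h2
            | exact hno g⁻¹ (by rw [← h1, inv_smul_smul]) (by rw [← h2, inv_smul_smul]))
    simpa using Nat.card_le_card_of_injective f hf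
  have h1 : ∑ h : (⊤ : Subgroup G), fx (Ω × Ω) (h : G) = ∑ g : G, fx Ω g * fx Ω g := by
    rw [← (Subgroup.topEquiv.toEquiv.sum_comp fun g => fx Ω g * fx Ω g)]
    exact Finset.sum_congr rfl fun h _ => fx_mul_self _
  have h4 := sum_fx_subgroup (Ω := Ω × Ω) (⊤ : Subgroup G)
  rw [h1, Subgroup.card_top] at h4
  have h5 : pairCount G Ω + Fintype.card G = ∑ g : G, fx Ω g * fx Ω g := by
    rw [pairCount, ← sum_fx htr, ← sum_add_distrib]
    exact Finset.sum_congr rfl fun g _ => Nat.sub_add_cancel (Nat.le_mul_self _)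
  have h6 : 3 * Nat.card G ≤ ∑ g : G, fx Ω g * fx Ω g := h4 ▸ Nat.mul_le_mul_right _ h3
  rw [← Nat.card_eq_fintype_card] at h5
  omega

/-- The main theorem. -/
theorem two_mul_card_le [FaithfulSMul G Ω] (htr : IsPretransitive G Ω) (hn : 7 ≤ Fintype.card Ω) :
    (∃ a : ℕ, (a = 1 ∨ a = 2) ∧ (IsPretransitive G Ω ∧ (∃ g : G, g ≠ 1 ∧ ∃ ω : Ω, g • ω = ω) ∧
        ∀ g : G, g ≠ 1 → Nat.card (fixedBy Ω g) ≤ 1) ∧
      a * Nat.card G = Fintype.card Ω * (Fintype.card Ω - 1) ∧
      Fintype.card Ω * Nat.card {g : G // ∀ ω : Ω, g • ω ≠ ω} = a * Nat.card G) ∨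
    2 * Nat.card G ≤ Fintype.card Ω * Nat.card {g : G // ∀ ω : Ω, g • ω ≠ ω} := by
  haveI : Nonempty Ω := Fintype.card_pos_iff.1 (by omega)
  have hder : Nat.card {g : G // ∀ ω : Ω, g • ω ≠ ω} = (univ.filter fun g : G => fx Ω g = 0).card := by
    rw [Nat.card_eq_fintype_card, Fintype.card_subtype]
    exact congrArg _ (filter_congr fun g _ => (fx_eq_zero).symm)
  rw [hder]
  have hid := card_mul_derangements (G := G) (Ω := Ω) htr
  set S := ∑ g : G, ((fx Ω g * fx Ω g - fx Ω g : ℕ) : ℚ) * wt Ω g with hS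
  have hS0 : 0 ≤ S := sum_nonneg fun g _ => mul_nonneg (Nat.cast_nonneg _) (wt_nonneg g)
  have done : (2 * Nat.card G : ℚ) ≤ pairCount G Ω + S →
      2 * Nat.card G ≤ Fintype.card Ω * (univ.filter fun g : G => fx Ω g = 0).card := fun h => by
    rw [← hid] at h
    exact_mod_cast h
  by_cases h2 : IsMultiplyPretransitive G Ω 2
  swap
  · refine Or.inr (done ?_)
    have : ((2 * Nat.card G : ℕ) : ℚ) ≤ (pairCount G Ω : ℚ) := by
      exact_mod_cast two_mul_card_le_pairCount htr h2
    push_cast at this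
    linarith
  obtain ⟨a, b, hab⟩ := Fintype.exists_pair_of_one_lt_card (α := Ω) (by omega)
  have h2' := two_trans h2
  have hG := card_group h2 hab
  have hpc : pairCount G Ω = Nat.card G := by
    rw [pairCount_eq, sum_congr rfl (fun p hp => card_pairStab_eq h2' (mem_offDiag.1 hp).2.2 hab),
      sum_const, offDiag_card, card_univ, smul_eq_mul, hG, ← mul_assoc, Nat.mul_sub, mul_one]
  rcases Nat.lt_or_ge (Nat.card (pairStab G a b)) 2 with hd | hd
  · have hd1 : Nat.card (pairStab G a b) = 1 := by
      have : 0 < Nat.card (pairStab G a b) := Nat.card_pos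
      omega
    rw [hd1, mul_one] at hG
    have hf : ∀ g : G, g ≠ 1 → fx Ω g ≤ 1 := by
      intro g hg
      by_contra! hlt
      obtain ⟨x, y, hx, hy, hxy⟩ := one_lt_card_iff.1 hlt
      have hcard := card_pairStab_eq h2' hxy hab
      rw [hd1, Subgroup.card_eq_one] at hcard
      have : g ∈ pairStab G x y := ⟨mem_fixSet.1 hx, mem_fixSet.1 hy⟩
      rw [hcard, Subgroup.mem_bot] at this
      exact hg this
    refine Or.inl ⟨1, Or.inl rfl, ⟨htr, ?_, fun g hg => fx_eq_card_fixedBy (Ω := Ω) g ▸ hf g hg⟩,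
      by rw [one_mul, hG], ?_⟩
    · obtain ⟨c, hca, hcb⟩ : ∃ c, c ≠ a ∧ c ≠ b := by
        by_contra! hall
        have := card_le_card (s := (univ : Finset Ω)) (t := {a, b}) fun x _ => by
          by_cases hx : x = a
          · simp [hx]
          · simp [hall x hx]
        rw [card_univ, card_pair hab] at this
        omega
      obtain ⟨g, hga, hgb⟩ := h2' a b a c hab (Ne.symm hca)
      refine ⟨g, fun h => hcb ?_, a, hga⟩
      rw [← hgb, h, one_smul]
    · have hS1 : S = 0 := sum_eq_zero fun g _ => by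
        by_cases hg : g = 1
        · subst hg; simp [wt, fx_one]
        · have := hf g hg
          interval_cases h : fx Ω g <;> simp
      rw [hS1, add_zero, hpc] at hid
      rw [one_mul]
      exact_mod_cast hid
  · refine Or.inr (done ?_)
    have hS2 : (Nat.card G : ℚ) ≤ S := by
      have h := sum_pairs (G := G) (Ω := Ω) (wt Ω)
      simp only [nsmul_eq_mul] at h
      rw [hS, ← h, ← hpc, pairCount_eq, Nat.cast_sum]
      refine sum_le_sum fun p hp => ?_
      have hp' := (mem_offDiag.1 hp).2.2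
      refine (card_le_sum_wt h2 hn hp' ?_).trans (le_of_eq ?_)
      · rw [card_pairStab_eq h2' hp' hab]; exact hd
      · exact (Finset.sum_subtype (univ.filter fun g : G => g ∈ pairStab G p.1 p.2) (fun g => by simp)
          (fun g => wt Ω g)).symm
    rw [hpc]
    linarith

end Cfsg.Agent.Derange
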