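import Cfsg.Agent.Derange.Basic

/-!
Two-transitive groups: the fixed point sets of pair stabilisers form a Steiner system, and the
orbit statistics of a pair stabiliser.
-/

set_option autoImplicit false

namespace Cfsg.Agent.Derange

open MulAction Finset
open scoped Classical

variable {G : Type*} [Group G] {Ω : Type*} [MulAction G Ω] [Fintype Ω]

/-- The common fixed points of a pair stabiliser. -/
noncomputable def fixPair (G : Type*) [Group G] {Ω : Type*} [MulAction G Ω] [Fintype Ω] (x y : Ω) :
    Finset Ω := univ.filter fun c => ∀ g ∈ pairStab G x y, g • c = c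

theorem mem_fixPair {x y c : Ω} : c ∈ fixPair G x y ↔ ∀ g ∈ pairStab G x y, g • c = c := by
  simp [fixPair]

theorem left_mem_fixPair (x y : Ω) : x ∈ fixPair G x y := mem_fixPair.2 fun _ hg => hg.1

theorem right_mem_fixPair (x y : Ω) : y ∈ fixPair G x y := mem_fixPair.2 fun _ hg => hg.2

variable [Finite G] (h2 : ∀ a b c e : Ω, a ≠ b → c ≠ e → ∃ g : G, g • a = c ∧ g • b = e)
include h2

theorem card_pairStab_eq {a b c e : Ω} (hab : a ≠ b) (hce : c ≠ e) :
    Nat.card (pairStab G a b) = Nat.card (pairStab G c e) := by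
  obtain ⟨g, rfl, rfl⟩ := h2 a b c e hab hce
  have h : pairStab G (g • a) (g • b) = (pairStab G a b).map (MulAut.conj g).toMonoidHom := by
    rw [Subgroup.map_inf_eq _ _ _ (MulAut.conj g).injective, pairStab,
      stabilizer_smul_eq_stabilizer_map_conj, stabilizer_smul_eq_stabilizer_map_conj]
  rw [h]
  exact (Subgroup.card_map_of_injective (MulAut.conj g).injective).symm

omit [Finite G] in
theorem card_fixPair_eq {a b c e : Ω} (hab : a ≠ b) (hce : c ≠ e) :
    (fixPair G a b).card = (fixPair G c e).card := by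
  have key : ∀ (g : G) (a b : Ω), ∀ z ∈ fixPair G a b, g • z ∈ fixPair G (g • a) (g • b) := by
    intro g a b z hz
    refine mem_fixPair.2 fun h hh => ?_
    have h1 : g⁻¹ * h * g ∈ pairStab G a b := by
      refine Subgroup.mem_inf.2 ⟨?_, ?_⟩ <;> rw [mem_stabilizer_iff, mul_smul, mul_smul]
      · rw [mem_stabilizer_iff.1 hh.1, inv_smul_smul]
      · rw [mem_stabilizer_iff.1 hh.2, inv_smul_smul]
    have := mem_fixPair.1 hz _ h1
    rw [mul_smul, mul_smul, inv_smul_eq_iff] at this
    exact this
  obtain ⟨g, hc, he⟩ := h2 a b c e hab hce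
  refine card_bij (fun z _ => g • z) (fun z hz => ?_) (fun _ _ _ _ h => MulAction.injective g h)
    fun z hz => ⟨g⁻¹ • z, ?_, smul_inv_smul g z⟩
  · have := key g a b z hz
    rwa [hc, he] at this
  · rw [← hc, ← he] at hz
    have := key g⁻¹ _ _ z hz
    rwa [inv_smul_smul, inv_smul_smul] at this

/-- A pair of points in a block determines the block. -/
theorem pairStab_eq {x y u v : Ω} (hxy : x ≠ y) (huv : u ≠ v) (hu : u ∈ fixPair G x y)
    (hv : v ∈ fixPair G x y) : pairStab G x y = pairStab G u v :=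
  Subgroup.eq_of_le_of_card_ge (fun g hg => ⟨mem_fixPair.1 hu g hg, mem_fixPair.1 hv g hg⟩)
    (card_pairStab_eq h2 huv hxy).le

/-- An element other than the identity fixes a subspace of the Steiner system. -/
theorem fixPair_mul_le [FaithfulSMul G Ω] {g : G} (hg : g ≠ 1) {x y : Ω} (hxy : x ≠ y) :
    fx Ω g * ((fixPair G x y).card - 1) ≤ Fintype.card Ω - 1 := by
  obtain ⟨z, hz⟩ : ∃ z, g • z ≠ z := by
    by_contra! h
    exact hg (eq_of_smul_eq_smul (α := Ω) fun w => by rw [one_smul]; exact h w)
  set S := fun u : Ω => (fixPair G z u).erase z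
  have hdisj : ∀ u ∈ fixSet (Ω := Ω) g, ∀ v ∈ fixSet g, u ≠ v → Disjoint (S u) (S v) := by
    intro u hu v hv huv
    rw [disjoint_left]
    intro w hwu hwv
    have hu' := mem_fixSet.1 hu
    have hv' := mem_fixSet.1 hv
    have hzu : z ≠ u := fun h => hz (h ▸ hu')
    have hzv : z ≠ v := fun h => hz (h ▸ hv')
    rw [mem_erase] at hwu hwv
    have e1 := pairStab_eq h2 hzu (Ne.symm hwu.1) (left_mem_fixPair z u) hwu.2
    have e2 := pairStab_eq h2 hzv (Ne.symm hwv.1) (left_mem_fixPair z v) hwv.2
    have hvB : v ∈ fixPair G z u := mem_fixPair.2 fun h hh => by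
      rw [e1, ← e2] at hh; exact hh.2
    have e3 := pairStab_eq h2 hzu huv (right_mem_fixPair z u) hvB
    have : g ∈ pairStab G z u := e3 ▸ ⟨hu', hv'⟩
    exact hz this.1
  have hcard : ∀ u ∈ fixSet g, (S u).card = (fixPair G x y).card - 1 := by
    intro u hu
    rw [card_erase_of_mem (left_mem_fixPair z u),
      card_fixPair_eq h2 (fun h : z = u => hz (h ▸ mem_fixSet.1 hu)) hxy]
  calc fx Ω g * ((fixPair G x y).card - 1) = ∑ u ∈ fixSet (Ω := Ω) g, (S u).card := by
        rw [sum_congr rfl hcard, sum_const, smul_eq_mul, fx]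
    _ = ((fixSet g).biUnion S).card := (card_biUnion hdisj).symm
    _ ≤ ((univ : Finset Ω).erase z).card := card_le_card fun w hw => by
        obtain ⟨u, -, hw⟩ := mem_biUnion.1 hw
        exact mem_erase.2 ⟨(mem_erase.1 hw).1, mem_univ _⟩
    _ = _ := by rw [card_erase_of_mem (mem_univ z), card_univ]

end Cfsg.Agent.Derange
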