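import Cfsg.Agent.Derange.Pairs

/-!
A pair stabiliser of a two-transitive group with all orbits of length at most two has order at most two.
-/

set_option autoImplicit false

namespace Cfsg.Agent.Derange

open MulAction
open scoped Classical

/-- Two distinct subgroups of index two of a subgroup generate it. -/
theorem sup_eq_of_half {G : Type*} [Group G] [Finite G] {D K K' : Subgroup G} (hK : K ≤ D) (hK' : K' ≤ D)
    (hne : K ≠ K') (h1 : 2 * Nat.card K = Nat.card D) (h2 : 2 * Nat.card K' = Nat.card D) :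
    K ⊔ K' = D := by
  refine Subgroup.eq_of_le_of_card_ge (sup_le hK hK') ?_
  have hd1 : Nat.card K ∣ Nat.card ↥(K ⊔ K') := Subgroup.card_dvd_of_le le_sup_left
  have hd2 : Nat.card ↥(K ⊔ K') ∣ Nat.card D := Subgroup.card_dvd_of_le (sup_le hK hK')
  have hne' : Nat.card K ≠ Nat.card ↥(K ⊔ K') := fun h => hne (by
    have h3 : K = K ⊔ K' := Subgroup.eq_of_le_of_card_ge le_sup_left h.ge
    have h4 : K' ≤ K := h3 ▸ le_sup_right
    exact (Subgroup.eq_of_le_of_card_ge h4 (by omega)).symm)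
  obtain ⟨j, hj⟩ := hd1
  have hpos : 0 < Nat.card K := Nat.card_pos
  rw [hj, ← h1, Nat.mul_comm (Nat.card K) j] at hd2
  have hj2 : j ∣ 2 := Nat.dvd_of_mul_dvd_mul_right hpos hd2
  rcases (Nat.dvd_prime Nat.prime_two).1 hj2 with rfl | rfl
  · omega
  · omega

variable {G : Type*} [Group G] [Finite G] {Ω : Type*} [MulAction G Ω] [Fintype Ω] [FaithfulSMul G Ω]

omit [Fintype Ω] [FaithfulSMul G Ω] in
theorem relIndex_stabilizer (D : Subgroup G) (c : Ω) :
    (stabilizer G c).relIndex D = Nat.card (orbit D c) := by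
  rw [Nat.card_coe_set_eq, ← index_stabilizer, Subgroup.relIndex]
  congr 1

variable (h2 : ∀ a b c e : Ω, a ≠ b → c ≠ e → ∃ g : G, g • a = c ∧ g • b = e)
  (hsmall : ∀ x y : Ω, x ≠ y → ∀ c : Ω, Nat.card (orbit (pairStab G x y) c) ≤ 2)

include hsmall in
theorem sq_eq_one {x y : Ω} (hxy : x ≠ y) {g : G} (hg : g ∈ pairStab G x y) : g * g = 1 := by
  refine eq_of_smul_eq_smul (α := Ω) fun c => ?_
  rw [one_smul]
  have h := hsmall x y hxy c
  rw [← relIndex_stabilizer, Subgroup.relIndex] at h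
  rcases Nat.lt_or_ge ((stabilizer G c).subgroupOf (pairStab G x y)).index 2 with hlt | hge
  · have h1 : ((stabilizer G c).subgroupOf (pairStab G x y)).index = 1 := by
      have : ((stabilizer G c).subgroupOf (pairStab G x y)).index ≠ 0 := Subgroup.index_ne_zero_of_finite
      omega
    rw [Subgroup.index_eq_one, Subgroup.subgroupOf_eq_top] at h1
    exact mem_stabilizer_iff.1 (mul_mem (h1 hg) (h1 hg))
  · have := Subgroup.sq_mem_of_index_two (le_antisymm h hge) ⟨g, hg⟩
    rw [sq, Subgroup.mem_subgroupOf] at this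
    exact mem_stabilizer_iff.1 this

include hsmall in
theorem mul_comm_of_mem {x y : Ω} (hxy : x ≠ y) {g h : G} (hg : g ∈ pairStab G x y)
    (hh : h ∈ pairStab G x y) : Commute g h := by
  have hinv : ∀ z ∈ pairStab G x y, z⁻¹ = z := fun z hz =>
    inv_eq_of_mul_eq_one_right (sq_eq_one hsmall hxy hz)
  have := hinv _ (mul_mem hg hh)
  rw [mul_inv_rev, hinv g hg, hinv h hh] at this
  exact this.symm

include h2 hsmall

theorem half_card {x y z : Ω} (hxy : x ≠ y) (hxz : x ≠ z) (hne : pairStab G x y ≠ pairStab G x z) :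
    2 * Nat.card ↥(pairStab G x y ⊓ pairStab G x z) = Nat.card (pairStab G x y) := by
  have e : pairStab G x y ⊓ pairStab G x z = stabilizer G z ⊓ pairStab G x y := by
    simp only [pairStab]
    ac_rfl
  have h1 := Subgroup.relIndex_mul_relIndex (⊥ : Subgroup G) (stabilizer G z ⊓ pairStab G x y)
    (pairStab G x y) bot_le inf_le_right
  rw [Subgroup.relIndex_bot_left, Subgroup.relIndex_bot_left, Subgroup.inf_relIndex_right] at h1
  have h2' : (stabilizer G z).relIndex (pairStab G x y) ≤ 2 := by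
    rw [relIndex_stabilizer]; exact hsmall x y hxy z
  have h0 : (stabilizer G z).relIndex (pairStab G x y) ≠ 0 := Subgroup.index_ne_zero_of_finite
  have h1' : (stabilizer G z).relIndex (pairStab G x y) ≠ 1 := fun h => hne
    (Subgroup.eq_of_le_of_card_ge (fun g hg => ⟨hg.1, Subgroup.relIndex_eq_one.1 h hg⟩)
      (card_pairStab_eq h2 hxy hxz).ge)
  rw [e, ← h1, show (stabilizer G z).relIndex (pairStab G x y) = 2 by omega, mul_comm]

/-- Pair stabilisers through a point commute. -/
theorem commute_of_point {x₀ y₀ : Ω} (hd : 2 < Nat.card (pairStab G x₀ y₀)) (h0 : x₀ ≠ y₀) {x y z : Ω} (hxy : x ≠ y)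
    (hxz : x ≠ z) {g h : G} (hg : g ∈ pairStab G x y) (hh : h ∈ pairStab G x z) : Commute g h := by
  by_cases hne : pairStab G x y = pairStab G x z
  · exact mul_comm_of_mem hsmall hxy hg (hne.symm ▸ hh)
  set D1 := pairStab G x y
  set D2 := pairStab G x z
  have hcard : ∀ {u : Ω}, x ≠ u → Nat.card (pairStab G x u) = Nat.card D1 := fun hu =>
    card_pairStab_eq h2 hu hxy
  have hk12 : 2 * Nat.card ↥(D1 ⊓ D2) = Nat.card D1 := half_card h2 hsmall hxy hxz hne
  obtain ⟨w, hw⟩ : ∃ w, x ≠ w ∧ ¬ D1 ⊓ D2 ≤ pairStab G x w := by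
    by_contra hall
    push Not at hall
    have hbot : D1 ⊓ D2 = ⊥ := by
      rw [eq_bot_iff]
      intro k hk
      rw [Subgroup.mem_bot]
      refine eq_of_smul_eq_smul (α := Ω) fun u => ?_
      rw [one_smul]
      by_cases hu : x = u
      · subst hu; exact hk.1.1
      · exact (hall u hu hk).2
    rw [hbot, Subgroup.card_bot] at hk12
    have : Nat.card (pairStab G x₀ y₀) = Nat.card D1 := card_pairStab_eq h2 h0 hxy
    omega
  obtain ⟨hxw, hw⟩ := hw
  set D3 := pairStab G x w
  have hne13 : D1 ≠ D3 := fun e => hw (e ▸ inf_le_left)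
  have hne23 : D2 ≠ D3 := fun e => hw (e ▸ inf_le_right)
  have hk13 : 2 * Nat.card ↥(D1 ⊓ D3) = Nat.card D1 := half_card h2 hsmall hxy hxw hne13
  have hk23 : 2 * Nat.card ↥(D2 ⊓ D3) = Nat.card D2 := half_card h2 hsmall hxz hxw hne23
  have h12' : 2 * Nat.card ↥(D1 ⊓ D2) = Nat.card D2 := by rw [hk12, hcard hxz]
  have h13' : 2 * Nat.card ↥(D1 ⊓ D3) = Nat.card D3 := by rw [hk13, hcard hxw]
  have h23' : 2 * Nat.card ↥(D2 ⊓ D3) = Nat.card D3 := by rw [hk23, hcard hxz, hcard hxw]
  have n1 : D1 ⊓ D2 ≠ D1 ⊓ D3 := fun e => hw (e.le.trans inf_le_right)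
  have n2 : D1 ⊓ D2 ≠ D2 ⊓ D3 := fun e => hw (e.le.trans inf_le_right)
  have n3 : D1 ⊓ D3 ≠ D2 ⊓ D3 := fun e => by
    have hle : D1 ⊓ D3 ≤ D1 ⊓ D2 := le_inf inf_le_left (e.le.trans inf_le_left)
    exact n1 (Subgroup.eq_of_le_of_card_ge hle (by rw [hcard hxw] at h13'; omega)).symm
  have s1 := sup_eq_of_half inf_le_left inf_le_left n1 hk12 hk13
  have s2 := sup_eq_of_half inf_le_right inf_le_left n2 h12' hk23
  have s3 := sup_eq_of_half inf_le_right inf_le_right n3 h13' h23'
  have c1 : D1 ≤ Subgroup.centralizer (D1 : Set G) := fun a ha b hb => (mul_comm_of_mem hsmall hxy hb ha).eq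
  have c2 : D2 ≤ Subgroup.centralizer (D2 : Set G) := fun a ha b hb => (mul_comm_of_mem hsmall hxz hb ha).eq
  have c3 : D3 ≤ Subgroup.centralizer (D3 : Set G) := fun a ha b hb => (mul_comm_of_mem hsmall hxw hb ha).eq
  -- the intersection of the first two and the third commute
  have k12 : D1 ⊓ D2 ≤ Subgroup.centralizer (D3 : Set G) := by
    rw [Subgroup.le_centralizer_iff, ← s3, sup_le_iff, Subgroup.le_centralizer_iff,
      Subgroup.le_centralizer_iff (H := D2 ⊓ D3)]
    exact ⟨(inf_le_left.trans c1).trans (Subgroup.centralizer_le (fun a ha => ha.1)),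
      (inf_le_right.trans c2).trans (Subgroup.centralizer_le (fun a ha => ha.1))⟩
  have k13 : D1 ⊓ D3 ≤ Subgroup.centralizer (D2 : Set G) := by
    rw [Subgroup.le_centralizer_iff, ← s2, sup_le_iff, Subgroup.le_centralizer_iff,
      Subgroup.le_centralizer_iff (H := D2 ⊓ D3)]
    exact ⟨(inf_le_left.trans c1).trans (Subgroup.centralizer_le (fun a ha => ha.1)),
      (inf_le_right.trans c3).trans (Subgroup.centralizer_le (fun a ha => ha.2))⟩
  have hD1 : D1 ≤ Subgroup.centralizer (D2 : Set G) := by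
    rw [← s1]
    exact sup_le (inf_le_right.trans c2) k13
  exact ((hD1 hg) h hh).symm

set_option maxHeartbeats 1000000 in
/-- The order is at most two. -/
theorem card_le_two {a b : Ω} (hab : a ≠ b) : Nat.card (pairStab G a b) ≤ 2 := by
  by_contra! hd
  obtain ⟨z, hz⟩ : ∃ z, z ∉ fixPair G a b := by
    by_contra hall
    push Not at hall
    have hbot : pairStab G a b = ⊥ := by
      rw [eq_bot_iff]
      intro g hg
      rw [Subgroup.mem_bot]
      exact eq_of_smul_eq_smul (α := Ω) fun c => by rw [one_smul]; exact mem_fixPair.1 (hall c) g hg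
    rw [hbot, Subgroup.card_bot] at hd
    omega
  have hza : z ≠ a := by intro h; subst h; exact hz (left_mem_fixPair z b)
  have hzb : z ≠ b := by intro h; subst h; exact hz (right_mem_fixPair a z)
  obtain ⟨l, hl, hlb⟩ : ∃ l ∈ pairStab G a z, l • b ≠ b := by
    by_contra hall
    push Not at hall
    have hb : b ∈ fixPair G a z := mem_fixPair.2 hall
    refine hz (mem_fixPair.2 fun g hg => ?_)
    rw [← pairStab_eq h2 hza.symm hab (left_mem_fixPair a z) hb] at hg
    exact hg.2
  have hl' : l ∈ pairStab G z a := ⟨hl.2, hl.1⟩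
  have h1 : l • b ∈ fixPair G a b := mem_fixPair.2 fun g hg => by
    rw [← mul_smul, (commute_of_point h2 hsmall hd hab hab hza.symm hg hl).eq, mul_smul, hg.2]
  have h3 : l • b ∈ fixPair G z b := mem_fixPair.2 fun g hg => by
    rw [← mul_smul, (commute_of_point h2 hsmall hd hab hzb hza hg hl').eq, mul_smul, hg.2]
  have e1 := pairStab_eq h2 hab (Ne.symm hlb) (right_mem_fixPair a b) h1
  have e2 := pairStab_eq h2 hzb (Ne.symm hlb) (right_mem_fixPair z b) h3
  refine hz (mem_fixPair.2 fun g hg => ?_)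
  rw [e1, ← e2] at hg
  exact hg.1

end Cfsg.Agent.Derange
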